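import Cfsg.Agent.H6.HN.X.Pres
import Cfsg.Agent.H6.HN.X.Chk0

set_option autoImplicit false
set_option maxRecDepth 100000
set_option Elab.async false

namespace Cfsg.H6.HN.X

theorem ptOK : PtOK img 760 LS EQS := ptOK_of_chk fun p h1 h2 => by
  rw [← ptU_eq]
  exact (allR_range p0 (by norm_num : 0 + 760 = 760)) p h1 h2

theorem hrep : repOK 7 1413984905396736 LS EQS D HN.X.R = true := by decide +kernel

theorem rep : Good (evR img 760 7) 1413984905396736 ∧ Rels (evR img 760 7) HN.X.R ∧
    IsAct (MonoidHom.id _) (evR img 760 7) img 760 7 := rep_sound ptOK hrep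


end Cfsg.H6.HN.X
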